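import Cfsg.Agent.H2.FXDefs

/-! The easy relations in the group algebra of `L₂(13)`. -/

set_option autoImplicit false

namespace Cfsg.Agent.H96.FXRel

open Module Cfsg.Agent.H50.E83 Cfsg.Agent.H2FX
open scoped Matrix MatrixGroups

variable {A : Type} [Ring A] (φ : S13 →* A)

theorem hQ_eq : hQ φ = ∑ k : Fin 13, φ (gu ^ (k : ℕ)) := by
  rw [hQ, Finset.sum_range]
  simp only [map_pow]

theorem perm_Q (g g' : S13) (σ : Fin 13 → Fin 13) (hσ : Function.Injective σ)
    (h : ∀ k : Fin 13, g * gu ^ (k : ℕ) = gu ^ (σ k : ℕ) * g') : φ g * hQ φ = hQ φ * φ g' := by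
  rw [hQ_eq, Finset.mul_sum, Finset.sum_mul]
  refine Fintype.sum_bijective σ (Finite.injective_iff_bijective.1 hσ) _ _ fun k => ?_
  rw [← map_mul, ← map_mul, h]

theorem uQ : φ gu * hQ φ = hQ φ := by
  have := perm_Q φ gu 1 (fun k => k + 1) (by decide +kernel) (by decide +kernel)
  rwa [map_one, mul_one] at this

theorem Qu : hQ φ * φ gu = hQ φ := by
  rw [← perm_Q φ gu gu id Function.injective_id (fun k => (Commute.self_pow _ _).eq), uQ]

theorem tQ : φ gt * hQ φ = hQ φ * φ gt :=
  perm_Q φ gt gt (fun k => 12 * k) (by decide +kernel) (by decide +kernel)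

theorem cQ : φ gc * hQ φ = hQ φ * φ gc :=
  perm_Q φ gc gc (fun k => 9 * k) (by decide +kernel) (by decide +kernel)

theorem rel : RelStmt := by
  intro A _ φ h1
  have neg : ∀ g : S13, φ (-g) = φ g := fun g => by
    rw [← neg_one_mul, map_mul, h1, one_mul]
  have tt : φ gt * φ gt = 1 := by
    rw [← map_mul, show gt * gt = -1 by decide +kernel, h1]
  have ct : φ gc * φ gt = φ gt * φ gc := by
    rw [← map_mul, ← map_mul, show gc * gt = gt * gc by decide +kernel]
  have hE' : hE φ = hQ φ * (1 + φ gt) := by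
    rw [hE, add_mul, mul_add, one_mul, mul_one, tQ]
  have uE : φ gu * hE φ = hE φ := by rw [hE', ← mul_assoc, uQ]
  have tE : φ gt * hE φ = hE φ := by rw [hE, ← mul_assoc, mul_add, mul_one, tt, add_comm]
  have QE : hQ φ * hE φ = 13 * hE φ := by
    have : ∀ i : ℕ, φ gu ^ i * hE φ = hE φ := fun i => by
      induction i with
      | zero => rw [pow_zero, one_mul]
      | succ i ih => rw [pow_succ, mul_assoc, uE, ih]
    rw [hQ, Finset.sum_mul]
    simp only [this, Finset.sum_const, Finset.card_range, nsmul_eq_mul]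
    norm_num
  refine ⟨uE, ?_, tE, ?_, tQ φ, ?_, ?_, ?_, ?_, ?_, ?_, ?_, tt⟩
  · rw [hE, mul_assoc, Qu]
  · rw [hE', mul_assoc, add_mul, one_mul, tt, add_comm]
  · rw [hE, ← mul_assoc, mul_assoc _ (hQ φ), ← cQ, ← mul_assoc, mul_add, add_mul 1, mul_one,
      one_mul, ct]
  · calc hE φ * hE φ = (1 + φ gt) * (hQ φ * hE φ) := by rw [← mul_assoc]; rfl
      _ = 13 * hE φ + 13 * (φ gt * hE φ) := by
          have c13 : (13 : A) * φ gt = φ gt * 13 := by
            simpa using (Nat.cast_commute 13 (φ gt)).eq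
          rw [QE, add_mul, one_mul, ← mul_assoc, ← mul_assoc, c13]
      _ = 26 * hE φ := by rw [tE, ← add_mul]; norm_num
  · rw [← map_pow, show gc ^ 3 = 1 by decide +kernel, map_one]
  · rw [← map_pow, ← map_mul, ← map_mul, show gs * gc = gc ^ 2 * gs by decide +kernel]
  · rw [← map_pow, ← map_mul, ← map_mul, show gc * gs = gs * gc ^ 2 by decide +kernel]
  · rw [← map_mul, ← map_mul, show gt * gs = -(gs * gt) by decide +kernel, neg]
  · rw [← map_mul, show gs * gs = -1 by decide +kernel, h1]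

end Cfsg.Agent.H96.FXRel
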