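import Cfsg.Agent.H54.O84Defs

/-! The centraliser of `w` is transitive on the roots; reduction of the classification of the
configurations to a fixed central root. -/

set_option autoImplicit false

namespace Cfsg.Agent.H96.O84Cls

open Cfsg.Agent.H54.O84 Equiv Cfsg.Lie H37 H40 H34 H29

/-- A coordinate of the label of the image of `s` under `ρ r`. -/
noncomputable def cf (r s k : ℕ) : ℕ :=
  (((mF s k : ℤ) - (pr r s + 2 * pr (piF 0 r) s) * (mF r k : ℤ)) % 5).toNat

/-- The image of `s` under `ρ r`. -/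
noncomputable def rhoF (r s : ℕ) : ℕ := mI (cf r s 0 + 8 * cf r s 1 + 64 * cf r s 2 + 512 * cf r s 3)

/-- The word moves `s` to the central root. -/
noncomputable def go (l : List ℕ) : ℕ → Bool :=
  List.rec (fun s => Nat.beq s 130) (fun a _ ih s => Nat.blt a 240 && ih (rhoF a s)) l

/-- The words. -/
def wds : List (ℕ × List ℕ) :=
  [(0, [8, 4]), (1, [37, 2]), (2, [25, 1]), (3, [25, 6]), (4, [29, 14, 0]), (5, [3, 1]), (6, [8,
    2]), (7, [45, 3]), (8, [10, 1, 0]), (9, [25, 21]), (10, [8, 1]), (11, [44, 1]), (12, [45,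
    2]), (13, [8]), (14, [15, 2]), (15, [17, 1, 0]), (16, [25, 3]), (17, [15, 1]), (18, [43,
    3]), (19, [25, 4]), (20, [25, 11]), (21, [25, 14]), (22, [29, 6, 0]), (23, [29, 1, 0]), (24,
    [14, 3, 0]), (25, [29, 0]), (26, [21, 1]), (27, [44, 3]), (28, [25, 2]), (29, [25]), (30,
    [23, 1]), (31, [41, 2]), (32, [36, 3]), (33, [44, 4]), (34, [44, 2]), (35, [57, 7]), (36,
    [45, 15]), (37, [44, 18]), (38, [45, 19]), (39, [99, 44]), (40, [17, 7, 0]), (41, [31, 2,
    0]), (42, [31, 0]), (43, [18, 3, 0]), (44, [17, 0]), (45, [14, 0]), (46, [37, 1]), (47, [45,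
    7]), (48, [37]), (49, [44, 11]), (50, [44]), (51, [45]), (52, [45, 4]), (53, [56, 3]), (54,
    [45, 1]), (55, [45, 6]), (56, [37, 16]), (57, [25, 16]), (58, [78, 25]), (59, [108, 21]),
    (60, [90, 25]), (61, [108, 36]), (62, [52, 11, 0]), (63, [52, 0]), (64, [33, 0]), (65, [18,
    0]), (66, [57, 6]), (67, [21]), (68, [36]), (69, [57]), (70, [57, 1]), (71, [36, 26]), (72,
    [98, 21]), (73, [89, 37]), (74, [108, 56]), (75, [19, 0]), (76, [56]), (77, [89, 21]), (78,
    [81, 1]), (79, [99, 2]), (80, [15]), (81, [108, 3]), (82, [44, 19]), (83, [108, 7]), (84,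
    [89, 78, 0]), (85, [89, 0]), (86, [90, 0]), (87, [78, 0]), (88, [19, 14]), (89, [3]), (90,
    [7]), (91, [12]), (92, [4]), (93, [6, 5]), (94, [81, 2]), (95, [25, 17]), (96, [24]), (97,
    [98, 0]), (98, [2]), (99, [7, 5]), (100, [98, 3]), (101, [45, 18]), (102, [43]), (103, [79,
    0]), (104, [11]), (105, [56, 21, 0]), (106, [10, 0]), (107, [6, 0]), (108, [1, 0]), (109,
    [0]), (110, [81, 78]), (111, [81]), (112, [99]), (113, [108]), (114, [10, 5]), (115, [37,
    14]), (116, [99, 1]), (117, [11, 5]), (118, [23]), (119, [12, 5]), (120, [12, 8]), (121,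
    [41]), (122, [11, 8]), (123, [108, 6]), (124, [45, 31]), (125, [10, 8]), (126, [108, 0]),
    (127, [99, 0]), (128, [81, 0]), (129, [81, 78, 0]), (130, []), (131, [1]), (132, [6]), (133,
    [10]), (134, [56, 21]), (135, [11, 0]), (136, [79]), (137, [16]), (138, [57, 14]), (139,
    [89, 2]), (140, [79, 7]), (141, [2, 0]), (142, [98]), (143, [27]), (144, [44, 29]), (145,
    [98, 10]), (146, [98, 6]), (147, [88]), (148, [12, 0]), (149, [7, 0]), (150, [3, 0]), (151,
    [19, 14, 0]), (152, [78]), (153, [90]), (154, [89]), (155, [89, 78]), (156, [90, 1]), (157,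
    [56, 17]), (158, [78, 3]), (159, [26]), (160, [90, 2]), (161, [89, 1]), (162, [52, 3]),
    (163, [56, 0]), (164, [19]), (165, [19, 1]), (166, [31, 3]), (167, [52, 2]), (168, [52, 4]),
    (169, [108, 18]), (170, [57, 0]), (171, [36, 0]), (172, [21, 0]), (173, [57, 6, 0]), (174,
    [18]), (175, [33]), (176, [52]), (177, [52, 11]), (178, [33, 1]), (179, [29, 7]), (180, [27,
    3]), (181, [31, 11]), (182, [31, 4]), (183, [29, 4]), (184, [99, 14]), (185, [108, 14]),
    (186, [89, 19]), (187, [17, 15]), (188, [45, 0]), (189, [44, 0]), (190, [44, 11, 0]), (191,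
    [37, 0]), (192, [45, 7, 0]), (193, [37, 1, 0]), (194, [14]), (195, [17]), (196, [18, 3]),
    (197, [31]), (198, [31, 2]), (199, [17, 7]), (200, [17, 6]), (201, [23, 2]), (202, [41, 1]),
    (203, [26, 2]), (204, [90, 18]), (205, [98, 17]), (206, [98, 14]), (207, [89, 33]), (208,
    [90, 19]), (209, [89, 18]), (210, [25, 0]), (211, [25, 2, 0]), (212, [44, 3, 0]), (213, [21,
    1, 0]), (214, [29]), (215, [14, 3]), (216, [29, 1]), (217, [29, 6]), (218, [26, 1]), (219,
    [79, 29]), (220, [88, 14]), (221, [29, 16]), (222, [89, 14]), (223, [25, 3, 0]), (224, [17,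
    1]), (225, [90, 17]), (226, [5]), (227, [33, 2]), (228, [52, 1]), (229, [89, 5]), (230, [25,
    21, 0]), (231, [10, 1]), (232, [5, 2]), (233, [29, 3]), (234, [3, 1, 0]), (235, [29, 14]),
    (236, [5, 1]), (237, [31, 1]), (238, [29, 2]), (239, [5, 4])]

set_option maxRecDepth 100000 in
theorem wds_go : ∀ p ∈ wds, go p.2 p.1 = true := by decide +kernel

set_option maxRecDepth 100000 in
theorem wds_fst : wds.map Prod.fst = List.range 240 := by decide +kernel

theorem rho_val (h : RhoStmt) (r s : Rt) : (ρ r s : ℕ) = rhoF r s := by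
  have e : ∀ k : Fin 4, mF (ρ r s) k = cf r s k := fun k => by
    have h1 := congrFun (h.2.2.2.2.2.2.1 r s) k
    rw [Pi.sub_apply, Pi.smul_apply, smul_eq_mul, m_val, m_val, m_val, H54.O84.pair_eq,
      H54.O84.pair_eq, w_val] at h1
    have h2 : (((mF (ρ r s) k : ℕ) : ℤ) : ZMod 5) =
        (((mF s k : ℤ) - (pr r s + 2 * pr (piF 0 r) s) * (mF r k : ℤ) : ℤ) : ZMod 5) := by
      push_cast at h1 ⊢
      exact h1
    have h3 := (ZMod.intCast_eq_intCast_iff' _ _ 5).1 h2
    have h4 := mF_lt (ρ r s) k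
    unfold cf
    push_cast at h3
    rw [← h3]
    omega
  rw [← mI_mF (ρ r s), rhoF]
  have e0 : mF (ρ r s) 0 = cf r s 0 := e 0
  have e1 : mF (ρ r s) 1 = cf r s 1 := e 1
  have e2 : mF (ρ r s) 2 = cf r s 2 := e 2
  have e3 : mF (ρ r s) 3 = cf r s 3 := e 3
  rw [e0, e1, e2, e3]

theorem go_spec (h : RhoStmt) (l : List ℕ) : ∀ s : Rt, go l s = true →
    ∃ u ∈ CW w, (u s : ℕ) = 130 := by
  induction l with
  | nil => exact fun s hs => ⟨1, one_mem _, Nat.eq_of_beq_eq_true hs⟩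
  | cons a l ih =>
    intro s hs
    have hs' : (Nat.blt a 240 && go l (rhoF a s)) = true := hs
    rw [Bool.and_eq_true, Nat.blt_eq] at hs'
    obtain ⟨u, hu, e⟩ := ih (ρ ⟨a, hs'.1⟩ s) (by rw [rho_val h]; exact hs'.2)
    exact ⟨u * ρ ⟨a, hs'.1⟩, mul_mem hu (h.1 _), e⟩

theorem clsT (h : RhoStmt) : ClsTStmt := fun r => by
  have h1 : (r : ℕ) ∈ wds.map Prod.fst := by rw [wds_fst]; exact List.mem_range.2 r.2
  obtain ⟨p, hp, e⟩ := List.mem_map.1 h1
  exact go_spec h p.2 r (e ▸ wds_go p hp)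

theorem cls (hT : ClsTStmt) (hL : ClsLStmt) : ClsStmt := by
  intro r h1 h2
  obtain ⟨u, hu, e⟩ := hT (r 2)
  obtain ⟨uW, uw⟩ := mem_CW.1 hu
  have c : ∀ s, w (u s) = u (w s) := fun s => by rw [← Perm.mul_apply, ← uw, Perm.mul_apply]
  have p : ∀ a b, C8.R.pair (u a) (u b) = C8.R.pair a b := C8.R.pair_W uW
  obtain ⟨u', hu', i, h⟩ := hL (fun k => u (r k)) e (fun k l => by rw [p, h1])
    (fun k l => by rw [c, p, h2])
  refine ⟨u⁻¹ * u', mul_mem (inv_mem hu) hu', i, fun s hs => ?_⟩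
  obtain ⟨t, ht, e'⟩ := h (u s) fun k => by rw [c, p, hs]
  exact ⟨t, ht, by rw [Perm.mul_apply, e']; simp⟩

end Cfsg.Agent.H96.O84Cls
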