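import Cfsg.Agent.H74.RuDefs

/-!
# Rank three unitary groups: a point fixed by a Sylow subgroup has only good lines
-/

set_option autoImplicit false

namespace Cfsg.Agent.H96.RuSyl

open Cfsg Module Cfsg.Agent.H31 Cfsg.Agent.H74.Ru

theorem exists_max {G : Type} [Group G] (p : ℕ) (K : Subgroup G) :
    ∃ P ≤ K, IsPGroup p P ∧ ∀ Q ≤ K, IsPGroup p Q → P ≤ Q → Q ≤ P := by
  obtain ⟨P⟩ : Nonempty (Sylow p K) := inferInstance
  refine ⟨(P : Subgroup K).map K.subtype, Subgroup.map_subtype_le _, P.2.map _,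
    fun Q hQ h1 h2 => ?_⟩
  have h3 := P.3 (Q := Q.subgroupOf K) h1.comap_subtype (Subgroup.map_le_iff_le_comap.1 h2)
  rw [← h3, Subgroup.map_subgroupOf_eq_of_le hQ]

theorem exists_shift {F V : Type} [Field F] [AddCommGroup V] [Module F V] {x y z z' : V}
    (hz : z ∈ Submodule.span F {x, y}) (hz' : z' ∈ Submodule.span F {x, y}) (h : z ∉ F ∙ x)
    (h' : z' ∉ F ∙ x) : ∃ b t : F, b ≠ 0 ∧ z + t • x = b • z' := by
  obtain ⟨a, b, rfl⟩ := Submodule.mem_span_pair.1 hz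
  obtain ⟨a', b', rfl⟩ := Submodule.mem_span_pair.1 hz'
  have hb : b ≠ 0 := by
    rintro rfl
    exact h (Submodule.mem_span_singleton.2 ⟨a, by simp⟩)
  have hb' : b' ≠ 0 := by
    rintro rfl
    exact h' (Submodule.mem_span_singleton.2 ⟨a', by simp⟩)
  refine ⟨b / b', b / b' * a' - a, div_ne_zero hb hb', ?_⟩
  rw [smul_add, smul_smul, smul_smul, div_mul_cancel₀ _ hb']
  module

theorem syl (fix : FixStmt) (gb : GbStmt) : SylStmt := by
  intro F V _ _ _ _ _ S K hK hd hl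
  obtain ⟨g1, g2, g3, g4⟩ := gb S K hK
  have hs := S.herm.toIsHermSymm
  obtain ⟨k, -, hp, -⟩ := exists_pow_char S.hF
  have : Fact (ringChar F).Prime := ⟨hp⟩
  have : Finite (V ≃ₗ[F] V) := finite_linearEquiv
  obtain ⟨P, hPK, hP, hmax⟩ := exists_max (ringChar F) K
  have hiso : ∀ g ∈ K, g ∈ isom S.B := fun g hg => sisom_le_isom (hK hg)
  obtain ⟨x, -, x0, xx, hx⟩ := fix S P (hPK.trans hK) hP ⊥ ⊤ bot_le
    (fun a ha r _ => by rw [(Submodule.mem_bot F).1 ha, zero_left])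
    (fun g _ a ha => by rw [(Submodule.mem_bot F).1 ha, map_zero]; exact Submodule.zero_mem _)
    (fun _ _ _ _ => trivial) (by
      obtain ⟨u, -, u0, uu⟩ := S.herm.exists_isotropic S.herm.nondegOn_top (by
        rw [finrank_top, S.dim]; have := S.hn; omega)
      exact ⟨u, trivial, by simpa using u0, uu⟩)
  replace x0 : x ≠ 0 := by simpa using x0
  replace hx : ∀ g ∈ P, g x = x := fun g hg => sub_eq_zero.1 ((Submodule.mem_bot F).1 (hx g hg))
  refine ⟨x, x0, xx, fun y hy => (hd x y hy).resolve_right fun hb => ?_⟩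
  let R : Submodule F V :=
    { carrier := {z | S.B x z = 0 ∧ ∀ w, S.Rad K x w → S.B w z = 0}
      zero_mem' := ⟨map_zero _, fun _ _ => map_zero _⟩
      add_mem' := fun ha hb => ⟨by rw [map_add, ha.1, hb.1, add_zero],
        fun w hw => by rw [map_add, ha.2 w hw, hb.2 w hw, add_zero]⟩
      smul_mem' := fun c _ ha => ⟨by rw [smul_right, ha.1, mul_zero],
        fun w hw => by rw [smul_right, ha.2 w hw, mul_zero]⟩ }
  obtain ⟨y', yR, yx, yy, hy'⟩ := fix S P (hPK.trans hK) hP (F ∙ x) R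
    ((Submodule.span_singleton_le_iff_mem x R).2 ⟨xx, fun w hw => hs.flip_zero hw.1⟩)
    (fun a ha r hr => by
      obtain ⟨c, rfl⟩ := Submodule.mem_span_singleton.1 ha
      rw [smul_left, hr.1, mul_zero])
    (fun g hg a ha => by
      obtain ⟨c, rfl⟩ := Submodule.mem_span_singleton.1 ha
      rw [map_smul, hx g hg]; exact ha)
    (fun g hg r hr => ⟨by rw [← hx g hg, hiso g (hPK hg), hr.1], fun w hw => by
      rw [isom_adj' (hiso g (hPK hg))]
      have h1 := (g1 g⁻¹ (inv_mem (hPK hg)) x y).2.2.2.2 w hw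
      rw [hx _ (inv_mem hg)] at h1
      exact hr.2 _ h1⟩)
    ⟨y, ⟨hy.2.2.1, hb⟩, hy.2.2.2.2, hy.2.1⟩
  have ti : S.TI x y' := ⟨xx, yy, yR.1, x0, yx⟩
  have bad : S.Bad K x y' := yR.2
  obtain ⟨x₀, y₀, t0, hsp, good⟩ := hl x y' ti
  have tr : ∀ (u v v' : V) (a : F), S.B u u = 0 → a ≠ 0 → v' ∈ Submodule.span F {u, v} →
      v' ∉ F ∙ (a • u) → (S.Good K u v → S.Good K (a • u) v') ∧
        (S.Bad K u v → S.Bad K (a • u) v') := fun u v v' a hu ha h1 h2 => by
    obtain ⟨c, b, rfl⟩ := Submodule.mem_span_pair.1 h1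
    have hb0 : b ≠ 0 := by
      rintro rfl
      exact h2 (Submodule.mem_span_singleton.2 ⟨c / a, by simp [smul_smul, ha]⟩)
    rw [add_comm]
    exact ⟨(g2 a b c u v ha hb0 hu).1, (g2 a b c u v ha hb0 hu).2.1⟩
  have mx : x ∈ Submodule.span F {x₀, y₀} := hsp ▸ Submodule.subset_span (by simp)
  have my : y' ∈ Submodule.span F {x₀, y₀} := hsp ▸ Submodule.subset_span (by simp)
  have mx0 : x₀ ∈ Submodule.span F {x₀, y₀} := Submodule.subset_span (by simp)
  have my0 : y₀ ∈ Submodule.span F {x₀, y₀} := Submodule.subset_span (by simp)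
  have n1 : x ∉ F ∙ x₀ := fun h => by
    obtain ⟨c, rfl⟩ := Submodule.mem_span_singleton.1 h
    have hc : c ≠ 0 := by rintro rfl; exact x0 (zero_smul _ _)
    exact g3 _ _ ((tr x₀ y₀ y' c t0.1 hc my yx).1 good) bad
  have hPl : ∀ g ∈ P, ∀ u ∈ Submodule.span F {x₀, y₀}, g u ∈ Submodule.span F {x₀, y₀} := by
    intro g hg u hu
    rw [hsp] at hu
    obtain ⟨a, b, rfl⟩ := Submodule.mem_span_pair.1 hu
    obtain ⟨c, hc⟩ := Submodule.mem_span_singleton.1 (hy' g hg)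
    rw [map_add, map_smul, map_smul, hx g hg, ← sub_add_cancel (g y') y', ← hc]
    exact add_mem (Submodule.smul_mem _ _ mx)
      (Submodule.smul_mem _ _ (add_mem (Submodule.smul_mem _ _ mx) my))
  have hperp : ∀ u ∈ Submodule.span F {x₀, y₀}, S.B x₀ u = 0 := fun u hu => by
    obtain ⟨a, b, rfl⟩ := Submodule.mem_span_pair.1 hu
    rw [map_add, smul_right, smul_right, t0.1, t0.2.2.1, mul_zero, mul_zero, add_zero]
  have key : ∀ t : F, ∃ a ∈ K, a ∈ uniRad S.B x₀ ∧ a x = x + t • x₀ ∧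
      a y' ∈ Submodule.span F {x₀, y₀} := fun t => by
    obtain ⟨α, β, e⟩ := Submodule.mem_span_pair.1 mx
    have hβ : β ≠ 0 := by
      rintro rfl
      exact n1 (Submodule.mem_span_singleton.2 ⟨α, by simpa using e⟩)
    obtain ⟨w, hw, e1⟩ := good (-t / β)
    obtain ⟨a, ha, ha', e2⟩ := g4 x₀ w t0.1 hw
    refine ⟨a, ha, ha', ?_, ?_⟩
    · have e3 : S.B w x = -t := by
        rw [← e, map_add, smul_right, smul_right, hs.flip_zero hw.1, e1, mul_zero, zero_add,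
          mul_div_cancel₀ _ hβ]
      rw [e2 x (hperp x mx), e3, neg_smul, sub_neg_eq_add]
    · rw [e2 y' (hperp y' my)]
      exact sub_mem my (Submodule.smul_mem _ _ mx0)
  have hfix : ∀ g ∈ P, g x₀ ∈ F ∙ x₀ := fun g hg => by
    by_contra h
    obtain ⟨b, t, hb0, e⟩ := exists_shift mx (hPl g hg _ mx0) n1 h
    obtain ⟨a, ha, -, e1, e2⟩ := key t
    obtain ⟨h1, -, h2, -⟩ := g1 g (hPK hg) x₀ y₀
    obtain ⟨-, h3, h4, -⟩ := g1 a ha x y'
    rw [e1, e] at h3 h4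
    refine g3 _ _ ((tr (g x₀) (g y₀) (a y') b (h2 t0).1 hb0 ?_ (h4 ti).2.2.2.2).1 (h1 good)) (h3 bad)
    obtain ⟨α, β, e3⟩ := Submodule.mem_span_pair.1 (hPl _ (inv_mem hg) _ e2)
    exact Submodule.mem_span_pair.2 ⟨α, β, by
      rw [← map_smul, ← map_smul, ← map_add, e3, apply_inv_apply]⟩
  obtain ⟨f, hf⟩ := S.herm.exists_hypPair t0.1 t0.2.2.2.1
  have hA : IsPGroup (ringChar F) (K ⊓ uniRad S.B x₀ : Subgroup _) :=
    (isPGroup_uniRad S.hF S.hσ S.herm t0.1 t0.2.2.2.1).to_le inf_le_right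
  have hN : P ≤ Subgroup.normalizer ((K ⊓ uniRad S.B x₀ : Subgroup _) : Set (V ≃ₗ[F] V)) :=
    fun g hg => Subgroup.mem_normalizer_fintype fun n hn => by
      obtain ⟨c, hc⟩ := Submodule.mem_span_singleton.1 (hfix g hg)
      exact ⟨K.mul_mem (K.mul_mem (hPK hg) hn.1) (K.inv_mem (hPK hg)),
        hs.conj_mem_uniRad hf (hiso g (hPK hg)) hc.symm hn.2⟩
  have hle := le_sup_right.trans (hmax _ (sup_le hPK inf_le_left)
    (hP.to_sup_of_normal_right' hA hN) le_sup_left)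
  obtain ⟨a, ha, ha', e1, -⟩ := key 1
  rw [hx a (hle ⟨ha, ha'⟩), one_smul, left_eq_add] at e1
  exact t0.2.2.2.1 e1

end Cfsg.Agent.H96.RuSyl
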